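import Mathlib

/-!
# The average dimension of the fixed spaces on a coset of an abelian group

`two_mul_sum_le`: a finite abelian group `M` of order prime to the characteristic acts on `V`
without fixed vectors on the invariant subspace `U`, and `h` normalises this action. Then the
average of `dim C_U(h m)`, `m ∈ M`, is at most `dim U / 2`.
-/

set_option autoImplicit false

namespace Cfsg.Agent.H725.AvgFix

open Module

section core

variable {F V : Type*} [Field F] [AddCommGroup V] [Module F V]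

/-- The fixed space of an operator. -/
def fx (T : V →ₗ[F] V) : Submodule F V := LinearMap.ker (T - LinearMap.id)

theorem mem_fx {T : V →ₗ[F] V} {v : V} : v ∈ fx T ↔ T v = v := by
  rw [fx, LinearMap.mem_ker, LinearMap.sub_apply, LinearMap.id_apply, sub_eq_zero]

variable {M : Type*} [CommGroup M] (ρ : M →* Module.End F V)

theorem rho_rho (a b : M) (v : V) : ρ a (ρ b v) = ρ (a * b) v := by
  rw [map_mul]; rfl

theorem rho_inj (m : M) : Function.Injective (ρ m) := by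
  intro a b hab
  have h3 := congrArg (ρ m⁻¹) hab
  rwa [rho_rho, rho_rho, inv_mul_cancel, map_one, Module.End.one_apply,
    Module.End.one_apply] at h3

/-- Averaging over a subgroup. -/
noncomputable def av (Y : Subgroup M) : Module.End F V :=
  (Nat.card Y : F)⁻¹ • ∑ᶠ y : Y, ρ y

variable [Finite M]

theorem av_apply (Y : Subgroup M) (v : V) :
    av ρ Y v = (Nat.card Y : F)⁻¹ • ∑ᶠ y : Y, ρ y v := by
  classical
  have : Fintype Y := Fintype.ofFinite Y
  rw [av, finsum_eq_sum_of_fintype, finsum_eq_sum_of_fintype, LinearMap.smul_apply,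
    LinearMap.sum_apply]

omit [Finite M] in
theorem card_ne {Y : Subgroup M} (hM : (Nat.card M : F) ≠ 0) : (Nat.card Y : F) ≠ 0 := by
  intro h
  obtain ⟨k, hk⟩ := Y.card_subgroup_dvd_card
  apply hM
  rw [hk, Nat.cast_mul, h, zero_mul]

theorem av_of_fixed (hM : (Nat.card M : F) ≠ 0) {Y : Subgroup M} {v : V}
    (hv : ∀ y ∈ Y, ρ y v = v) : av ρ Y v = v := by
  classical
  have : Fintype Y := Fintype.ofFinite Y
  rw [av_apply, finsum_eq_sum_of_fintype]
  have h1 : ∑ y : Y, ρ (y : M) v = (Nat.card Y : F) • v := by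
    have h2 : ∀ y : Y, ρ (y : M) v = v := fun y => hv y y.2
    rw [Finset.sum_congr rfl (fun y _ => h2 y), Finset.sum_const, Finset.card_univ,
      Nat.card_eq_fintype_card, Nat.cast_smul_eq_nsmul]
  rw [h1, smul_smul, inv_mul_cancel₀ (card_ne hM), one_smul]

theorem fixed_av {Y : Subgroup M} {y : M} (hy : y ∈ Y) (v : V) :
    ρ y (av ρ Y v) = av ρ Y v := by
  classical
  have : Fintype Y := Fintype.ofFinite Y
  rw [av_apply, finsum_eq_sum_of_fintype, map_smul, map_sum]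
  congr 1
  refine Fintype.sum_equiv (Equiv.mulLeft (⟨y, hy⟩ : Y)) _ _ fun z => ?_
  rw [Equiv.coe_mulLeft, Subgroup.coe_mul, map_mul]
  rfl

theorem av_comm (Y : Subgroup M) (m : M) (v : V) : ρ m (av ρ Y v) = av ρ Y (ρ m v) := by
  classical
  have : Fintype Y := Fintype.ofFinite Y
  rw [av_apply, av_apply, finsum_eq_sum_of_fintype, finsum_eq_sum_of_fintype, map_smul, map_sum]
  congr 1
  refine Finset.sum_congr rfl fun z _ => ?_
  rw [← Module.End.mul_apply, ← Module.End.mul_apply, ← map_mul, ← map_mul, mul_comm]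

theorem av_mem {U : Submodule F V} (hU : ∀ (m : M), ∀ u ∈ U, ρ m u ∈ U) (Y : Subgroup M) {u : V}
    (hu : u ∈ U) : av ρ Y u ∈ U := by
  classical
  have : Fintype Y := Fintype.ofFinite Y
  rw [av_apply, finsum_eq_sum_of_fintype]
  exact U.smul_mem _ (U.sum_mem fun y _ => hU y u hu)

/-- The permutation of the subgroups induced by an automorphism. -/
def tau (σ : M ≃* M) : Equiv.Perm (Subgroup M) := (MulEquiv.mapSubgroup σ).toEquiv

omit [Finite M] in
theorem mem_tau {σ : M ≃* M} {Y : Subgroup M} {m : M} :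
    σ m ∈ tau σ Y ↔ m ∈ Y := by
  show σ m ∈ Y.map σ.toMonoidHom ↔ _
  rw [Subgroup.mem_map]
  constructor
  · rintro ⟨y, hy, h⟩
    rwa [← σ.injective h]
  · intro h
    exact ⟨m, h, rfl⟩

omit [Finite M] in
theorem card_tau (σ : M ≃* M) (Y : Subgroup M) : Nat.card (tau σ Y) = Nat.card Y := by
  show Nat.card (Y.map σ.toMonoidHom) = _
  exact Subgroup.card_map_of_injective σ.injective

theorem av_tau {σ : M ≃* M} {T : V →ₗ[F] V}
    (hT : ∀ m v, T (ρ m v) = ρ (σ m) (T v)) (Y : Subgroup M) (v : V) :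
    T (av ρ Y v) = av ρ (tau σ Y) (T v) := by
  classical
  have : Fintype Y := Fintype.ofFinite Y
  have : Fintype (tau σ Y) := Fintype.ofFinite _
  rw [av_apply, av_apply, finsum_eq_sum_of_fintype, finsum_eq_sum_of_fintype, map_smul, map_sum,
    card_tau]
  congr 1
  let e : Y ≃ tau σ Y :=
    { toFun := fun y => ⟨σ y, mem_tau.2 y.2⟩
      invFun := fun y => ⟨σ.symm y, by
        have h := y.2
        rw [← σ.apply_symm_apply (y : M)] at h
        exact mem_tau.1 h⟩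
      left_inv := fun y => by ext; simp
      right_inv := fun y => by ext; simp }
  exact Fintype.sum_equiv e _ _ fun y => hT y v

/-- Case where the subgroup is not normalised: a bound for each element. -/
theorem bound_of_orbit [FiniteDimensional F V] {σ : M ≃* M}
    {T : V →ₗ[F] V} (hTinj : Function.Injective T) (hT : ∀ m v, T (ρ m v) = ρ (σ m) (T v))
    {U : Submodule F V} (hU : ∀ (m : M), ∀ u ∈ U, ρ m u ∈ U) (hTU : ∀ u ∈ U, T u ∈ U)
    {Y : Subgroup M} (hdis : ∀ u ∈ U, (∀ y ∈ Y, ρ y u = u) → (∀ y ∈ tau σ Y, ρ y u = u) → u = 0)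
    (hspan : ∀ u ∈ U, (∀ i : ℕ, av ρ ((tau σ ^ i) Y) u = 0) → u = 0) :
    2 * finrank F ↥(U ⊓ fx T) ≤ finrank F U := by
  classical
  -- the fixed space of `Y`
  let W : Submodule F V := U ⊓ (⨅ y : Y, fx (ρ y))
  have hW : ∀ {w : V}, w ∈ W ↔ w ∈ U ∧ ∀ y ∈ Y, ρ y w = w := by
    intro w
    simp only [W, Submodule.mem_inf, Submodule.mem_iInf, mem_fx, Subtype.forall]
  -- injection
  have h1 : finrank F ↥(U ⊓ fx T) ≤ finrank F W := by
    let f : ↥(U ⊓ fx T) →ₗ[F] W :=
      ((av ρ Y).domRestrict (U ⊓ fx T)).codRestrict W (fun u => by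
        rw [hW]
        exact ⟨av_mem ρ hU Y u.2.1, fun y hy => fixed_av ρ hy _⟩)
    refine LinearMap.finrank_le_finrank_of_injective (f := f) ?_
    rw [← LinearMap.ker_eq_bot, LinearMap.ker_eq_bot']
    rintro ⟨u, hu⟩ hfu
    have h0 : av ρ Y u = 0 := congrArg Subtype.val hfu
    apply Subtype.ext
    show u = 0
    apply hspan u hu.1
    intro i
    induction i with
    | zero => simpa using h0
    | succ i ih =>
      rw [pow_succ', Equiv.Perm.mul_apply]
      have h2 := av_tau ρ hT ((tau σ ^ i) Y) u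
      rw [ih, map_zero, mem_fx.1 hu.2] at h2
      exact h2.symm
  have h2 : 2 * finrank F W ≤ finrank F U := by
    have hmap : W.map T ≤ U := by
      rintro _ ⟨w, hw, rfl⟩
      exact hTU w (hW.1 hw).1
    have hd : Disjoint W (W.map T) := by
      rw [Submodule.disjoint_def]
      rintro x hx ⟨w, hw, rfl⟩
      refine hdis _ (hW.1 hx).1 (hW.1 hx).2 ?_
      intro y hy
      have hy' : σ.symm y ∈ Y := by
        rw [← σ.apply_symm_apply y] at hy
        exact mem_tau.1 hy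
      have := hT (σ.symm y) w
      rw [σ.apply_symm_apply, (hW.1 hw).2 _ hy'] at this
      exact this.symm
    have h3 := Submodule.finrank_sup_add_finrank_inf_eq W (W.map T)
    rw [hd.eq_bot, finrank_bot, add_zero] at h3
    have h4 : finrank F (W.map T) = finrank F W :=
      (LinearEquiv.finrank_eq (Submodule.equivMapOfInjective T hTinj W)).symm
    have h5 : finrank F ↥(W ⊔ W.map T) ≤ finrank F U :=
      Submodule.finrank_mono (sup_le inf_le_left hmap)
    omega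
  omega

/-- The stabiliser of a vector. -/
def st (u : V) : Subgroup M where
  carrier := {m | ρ m u = u}
  one_mem' := by simp
  mul_mem' := by
    intro a b ha hb
    simp only [Set.mem_ofPred_eq] at ha hb ⊢
    rw [map_mul, Module.End.mul_apply, hb, ha]
  inv_mem' := by
    intro a ha
    simp only [Set.mem_ofPred_eq] at ha ⊢
    have : ρ (a⁻¹ * a) u = u := by rw [inv_mul_cancel, map_one]; rfl
    rwa [map_mul, Module.End.mul_apply, ha] at this

omit [Finite M] in
theorem mem_st {u : V} {m : M} : m ∈ st ρ u ↔ ρ m u = u := Iff.rfl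

omit [Finite M] in
theorem le_st {u : V} {Y : Subgroup M} : Y ≤ st ρ u ↔ ∀ y ∈ Y, ρ y u = u := Iff.rfl

/-- The orbit of a subgroup. -/
noncomputable def orb (σ : M ≃* M) (Y : Subgroup M) : Finset (Subgroup M) :=
  (Set.toFinite {Z : Subgroup M | (tau σ).SameCycle Y Z}).toFinset

theorem mem_orb {σ : M ≃* M} {Y Z : Subgroup M} : Z ∈ orb σ Y ↔ (tau σ).SameCycle Y Z := by
  rw [orb, Set.Finite.mem_toFinset]
  rfl

/-- The projection to the sum of the fixed spaces of the members of an orbit. -/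
noncomputable def ee (σ : M ≃* M) (Y : Subgroup M) : Module.End F V := ∑ Z ∈ orb σ Y, av ρ Z

theorem ee_apply (σ : M ≃* M) (Y : Subgroup M) (v : V) :
    ee ρ σ Y v = ∑ Z ∈ orb σ Y, av ρ Z v := by
  rw [ee, LinearMap.sum_apply]

theorem ee_comm {σ : M ≃* M} {T : V →ₗ[F] V}
    (hT : ∀ m v, T (ρ m v) = ρ (σ m) (T v)) (Y : Subgroup M) (v : V) :
    T (ee ρ σ Y v) = ee ρ σ Y (T v) := by
  rw [ee_apply, ee_apply, map_sum]
  refine Finset.sum_equiv (tau σ) ?_ ?_
  · intro Z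
    rw [mem_orb, mem_orb, Equiv.Perm.sameCycle_apply_right]
  · intro Z _
    exact av_tau ρ hT Z v

theorem ee_rho (σ : M ≃* M) (Y : Subgroup M) (m : M) (v : V) :
    ρ m (ee ρ σ Y v) = ee ρ σ Y (ρ m v) := by
  rw [ee_apply, ee_apply, map_sum]
  exact Finset.sum_congr rfl fun Z _ => av_comm ρ Z m v

theorem card_orb {σ : M ≃* M} {Y Z : Subgroup M} (h : Z ∈ orb σ Y) : Nat.card Z = Nat.card Y := by
  rw [mem_orb] at h
  obtain ⟨i, -, rfl⟩ := h.exists_pow_eq'
  clear h
  induction i with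
  | zero => rfl
  | succ i ih => rw [pow_succ', Equiv.Perm.mul_apply, card_tau, ih]

/-- **The average bound.** -/
theorem two_mul_sum_le (hM : (Nat.card M : F) ≠ 0) [FiniteDimensional F V] {σ : M ≃* M}
    {h : V →ₗ[F] V} (hinj : Function.Injective h) (hh : ∀ m v, h (ρ m v) = ρ (σ m) (h v)) (n : ℕ) :
    ∀ (U : Submodule F V), finrank F U = n → (∀ (m : M), ∀ u ∈ U, ρ m u ∈ U) →
      (∀ u ∈ U, h u ∈ U) → (∀ u ∈ U, (∀ m : M, ρ m u = u) → u = 0) →
      2 * ∑ᶠ m : M, finrank F ↥(U ⊓ fx (h ∘ₗ ρ m)) ≤ Nat.card M * finrank F U := by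
  classical
  have : Fintype M := Fintype.ofFinite M
  induction n using Nat.strong_induction_on with | _ n ih =>
  intro U hn hU hhU h0
  rw [finsum_eq_sum_of_fintype]
  by_cases hUbot : U = ⊥
  · subst hUbot
    have : ∀ m : M, finrank F ↥((⊥ : Submodule F V) ⊓ fx (h ∘ₗ ρ m)) = 0 := by
      intro m
      rw [bot_inf_eq, finrank_bot]
    simp [this]
  obtain ⟨v₀, hv₀, hv₀0⟩ := (Submodule.ne_bot_iff U).1 hUbot
  -- the choice of `Y`
  have hSfin : {Y : Subgroup M | ∃ u ∈ U, u ≠ 0 ∧ Y ≤ st ρ u}.Finite := Set.toFinite _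
  have hSne : {Y : Subgroup M | ∃ u ∈ U, u ≠ 0 ∧ Y ≤ st ρ u}.Nonempty :=
    ⟨⊥, v₀, hv₀, hv₀0, bot_le⟩
  obtain ⟨Y, hYS, hYmax⟩ := Set.exists_max_image _ (fun Y : Subgroup M => Nat.card Y) hSfin hSne
  obtain ⟨v, hv, hv0, hYv⟩ := hYS
  have hdisj : ∀ Z₁ Z₂ : Subgroup M, Nat.card Z₁ = Nat.card Y → Nat.card Z₂ = Nat.card Y →
      Z₁ ≠ Z₂ → ∀ u ∈ U, Z₁ ≤ st ρ u → Z₂ ≤ st ρ u → u = 0 := by
    intro Z₁ Z₂ hc₁ hc₂ hne u hu h₁ h₂
    by_contra hu0
    have hle := hYmax (Z₁ ⊔ Z₂) ⟨u, hu, hu0, sup_le h₁ h₂⟩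
    have e₁ : Z₁ = Z₁ ⊔ Z₂ := Subgroup.eq_of_le_of_card_ge le_sup_left (hle.trans_eq hc₁.symm)
    have e₂ : Z₂ = Z₁ ⊔ Z₂ := Subgroup.eq_of_le_of_card_ge le_sup_right (hle.trans_eq hc₂.symm)
    exact hne (e₁.trans e₂.symm)
  have havst : ∀ (Z : Subgroup M) (u : V), Z ≤ st ρ (av ρ Z u) := fun Z u y hy => fixed_av ρ hy u
  have havst' : ∀ (Z Z' : Subgroup M) (u : V), Z' ≤ st ρ u → Z' ≤ st ρ (av ρ Z u) := by
    intro Z Z' u hu y hy
    rw [mem_st, av_comm, hu hy]
  have hav0 : ∀ Z₁ ∈ orb σ Y, ∀ Z₂ ∈ orb σ Y, Z₁ ≠ Z₂ → ∀ u ∈ U, av ρ Z₁ (av ρ Z₂ u) = 0 := by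
    intro Z₁ h₁ Z₂ h₂ hne u hu
    exact hdisj Z₁ Z₂ (card_orb h₁) (card_orb h₂) hne _ (av_mem ρ hU _ (av_mem ρ hU _ hu))
      (havst _ _) (havst' _ _ _ (havst _ _))
  have hYorb : Y ∈ orb σ Y := mem_orb.2 (Equiv.Perm.SameCycle.refl _ _)
  set e : Module.End F V := ee ρ σ Y with he
  have heU : ∀ u ∈ U, e u ∈ U := by
    intro u hu
    rw [he, ee_apply]
    exact U.sum_mem fun Z _ => av_mem ρ hU Z hu
  have hee : ∀ u ∈ U, e (e u) = e u := by
    intro u hu
    conv_lhs => rw [he, ee_apply]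
    conv_rhs => rw [he, ee_apply]
    refine Finset.sum_congr rfl fun Z hZ => ?_
    rw [ee_apply, map_sum, Finset.sum_eq_single Z]
    · exact av_of_fixed ρ hM (havst Z u)
    · intro Z' hZ' hne
      exact hav0 Z hZ Z' hZ' hne.symm u hu
    · intro h; exact absurd hZ h
  have hev : e v = v := by
    rw [he, ee_apply, Finset.sum_eq_single Y]
    · exact av_of_fixed ρ hM hYv
    · intro Z hZ hne
      exact hdisj Z Y (card_orb hZ) rfl hne _ (av_mem ρ hU _ hv) (havst _ _) (havst' _ _ _ hYv)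
    · intro h; exact absurd hYorb h
  have heh : ∀ u, h (e u) = e (h u) := fun u => ee_comm ρ hh Y u
  have heρ : ∀ m u, ρ m (e u) = e (ρ m u) := fun m u => ee_rho ρ σ Y m u
  set U₁ : Submodule F V := U ⊓ fx e with hU₁
  set U₂ : Submodule F V := U ⊓ LinearMap.ker e with hU₂
  have hm₁ : ∀ {u}, u ∈ U₁ ↔ u ∈ U ∧ e u = u := by
    intro u
    rw [hU₁, Submodule.mem_inf, mem_fx]
  have hm₂ : ∀ {u}, u ∈ U₂ ↔ u ∈ U ∧ e u = 0 := by
    intro u
    rw [hU₂, Submodule.mem_inf, LinearMap.mem_ker]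
  have hdis12 : Disjoint U₁ U₂ := by
    rw [Submodule.disjoint_def]
    intro x hx hx'
    rw [← (hm₁.1 hx).2, (hm₂.1 hx').2]
  have hdim : finrank F U₁ + finrank F U₂ ≤ finrank F U := by
    have h3 := Submodule.finrank_sup_add_finrank_inf_eq U₁ U₂
    rw [hdis12.eq_bot, finrank_bot, add_zero] at h3
    have h5 : finrank F ↥(U₁ ⊔ U₂) ≤ finrank F U :=
      Submodule.finrank_mono (sup_le inf_le_left inf_le_left)
    omega
  have hsplit : ∀ m : M, finrank F ↥(U ⊓ fx (h ∘ₗ ρ m)) ≤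
      finrank F ↥(U₁ ⊓ fx (h ∘ₗ ρ m)) + finrank F ↥(U₂ ⊓ fx (h ∘ₗ ρ m)) := by
    intro m
    refine le_trans (Submodule.finrank_mono ?_)
      (Submodule.finrank_add_le_finrank_add_finrank _ _)
    intro u hu
    obtain ⟨huU, huf⟩ := Submodule.mem_inf.1 hu
    rw [mem_fx, LinearMap.comp_apply] at huf
    have h1 : h (ρ m (e u)) = e u := by
      rw [heρ, heh, huf]
    have h2 : e u ∈ U₁ ⊓ fx (h ∘ₗ ρ m) := by
      refine Submodule.mem_inf.2 ⟨hm₁.2 ⟨heU u huU, hee u huU⟩, ?_⟩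
      rw [mem_fx]
      exact h1
    have h3 : u - e u ∈ U₂ ⊓ fx (h ∘ₗ ρ m) := by
      refine Submodule.mem_inf.2 ⟨hm₂.2 ⟨U.sub_mem huU (heU u huU), ?_⟩, ?_⟩
      · rw [map_sub, hee u huU, sub_self]
      · rw [mem_fx, LinearMap.comp_apply, map_sub, map_sub, huf, h1]
    have : u = e u + (u - e u) := by abel
    rw [this]
    exact Submodule.add_mem_sup h2 h3
  -- the induction hypothesis for `U₂`
  have hlt : finrank F U₂ < n := by
    have h1 : 0 < finrank F U₁ := by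
      rw [Module.finrank_pos_iff_exists_ne_zero]
      exact ⟨⟨v, hm₁.2 ⟨hv, hev⟩⟩, fun h => hv0 (congrArg Subtype.val h)⟩
    omega
  have hI₂ := ih _ hlt U₂ rfl
    (fun m u hu => hm₂.2 ⟨hU m u (hm₂.1 hu).1, by rw [← heρ, (hm₂.1 hu).2, map_zero]⟩)
    (fun u hu => hm₂.2 ⟨hhU u (hm₂.1 hu).1, by rw [← heh, (hm₂.1 hu).2, map_zero]⟩)
    (fun u hu => h0 u (hm₂.1 hu).1)
  rw [finsum_eq_sum_of_fintype] at hI₂
  -- the bound for `U₁`
  have hI₁ : 2 * ∑ m : M, finrank F ↥(U₁ ⊓ fx (h ∘ₗ ρ m)) ≤ Nat.card M * finrank F U₁ := by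
    by_cases hYσ : tau σ Y = Y
    · -- `Y` is normalised
      have horb : ∀ Z, Z ∈ orb σ Y ↔ Z = Y := by
        intro Z
        rw [mem_orb]
        constructor
        · intro hZ
          obtain ⟨i, -, rfl⟩ := hZ.exists_pow_eq'
          clear hZ
          induction i with
          | zero => rfl
          | succ i ih => rw [pow_succ', Equiv.Perm.mul_apply, ih, hYσ]
        · rintro rfl
          exact Equiv.Perm.SameCycle.refl _ _
      have heY : ∀ u, e u = av ρ Y u := by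
        intro u
        rw [he, ee_apply, Finset.sum_eq_single Y]
        · intro Z hZ hne
          exact absurd ((horb Z).1 hZ) hne
        · intro h; exact absurd hYorb h
      have hYU₁ : ∀ u ∈ U₁, Y ≤ st ρ u := by
        intro u hu
        rw [← (hm₁.1 hu).2, heY]
        exact havst Y u
      obtain ⟨x, hx⟩ : ∃ x : M, x ∉ Y := by
        by_contra hcon
        push Not at hcon
        exact hv0 (h0 v hv fun m => hYv (hcon m))
      have hpair : ∀ m : M, finrank F ↥(U₁ ⊓ fx (h ∘ₗ ρ m)) +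
          finrank F ↥(U₁ ⊓ fx (h ∘ₗ ρ (m * x))) ≤ finrank F U₁ := by
        intro m
        have hd : Disjoint (U₁ ⊓ fx (h ∘ₗ ρ m)) (U₁ ⊓ fx (h ∘ₗ ρ (m * x))) := by
          rw [Submodule.disjoint_def]
          intro u hu hu'
          obtain ⟨hu1, hu2⟩ := Submodule.mem_inf.1 hu
          obtain ⟨-, hu3⟩ := Submodule.mem_inf.1 hu'
          rw [mem_fx, LinearMap.comp_apply] at hu2 hu3
          have h1 : ρ m (ρ x u) = ρ m u := by
            apply hinj
            rw [hu2, rho_rho, hu3]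
          have h2 : ρ x u = u := rho_inj ρ m h1
          by_contra hne
          have h4 : Y ≤ st ρ u := hYU₁ u hu1
          have h5 := hYmax (st ρ u) ⟨u, (hm₁.1 hu1).1, hne, le_rfl⟩
          have h6 : Y = st ρ u := Subgroup.eq_of_le_of_card_ge h4 h5
          apply hx
          rw [h6]
          exact h2
        have h3 := Submodule.finrank_sup_add_finrank_inf_eq (U₁ ⊓ fx (h ∘ₗ ρ m))
          (U₁ ⊓ fx (h ∘ₗ ρ (m * x)))
        rw [hd.eq_bot, finrank_bot, add_zero] at h3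
        rw [← h3]
        exact Submodule.finrank_mono (sup_le inf_le_left inf_le_left)
      have hsum := Finset.sum_le_sum (fun (m : M) (_ : m ∈ Finset.univ) => hpair m)
      rw [Finset.sum_add_distrib, Finset.sum_const, Finset.card_univ, smul_eq_mul,
        ← Nat.card_eq_fintype_card] at hsum
      have hshift : ∑ m : M, finrank F ↥(U₁ ⊓ fx (h ∘ₗ ρ (m * x))) =
          ∑ m : M, finrank F ↥(U₁ ⊓ fx (h ∘ₗ ρ m)) :=
        Fintype.sum_equiv (Equiv.mulRight x) _ _ fun m => rfl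
      rw [hshift] at hsum
      omega
    · have hb : ∀ m : M, 2 * finrank F ↥(U₁ ⊓ fx (h ∘ₗ ρ m)) ≤ finrank F U₁ := by
        intro m
        refine bound_of_orbit ρ (σ := σ) (T := h ∘ₗ ρ m) (hinj.comp (rho_inj ρ m)) ?_ ?_ ?_ (Y := Y) ?_ ?_
        · intro m' v
          rw [LinearMap.comp_apply, LinearMap.comp_apply, ← hh, rho_rho, rho_rho, mul_comm]
        · intro m' u hu
          exact hm₁.2 ⟨hU m' u (hm₁.1 hu).1, by rw [← heρ, (hm₁.1 hu).2]⟩
        · intro u hu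
          rw [LinearMap.comp_apply]
          refine hm₁.2 ⟨hhU _ (hU m u (hm₁.1 hu).1), ?_⟩
          rw [← heh, ← heρ, (hm₁.1 hu).2]
        · intro u hu h1 h2
          exact hdisj Y (tau σ Y) rfl (card_tau σ Y) (Ne.symm hYσ) u (hm₁.1 hu).1 h1 h2
        · intro u hu h1
          rw [← (hm₁.1 hu).2, he, ee_apply]
          refine Finset.sum_eq_zero fun Z hZ => ?_
          obtain ⟨i, -, rfl⟩ := (mem_orb.1 hZ).exists_pow_eq'
          exact h1 i
      calc 2 * ∑ m : M, finrank F ↥(U₁ ⊓ fx (h ∘ₗ ρ m))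
          = ∑ m : M, 2 * finrank F ↥(U₁ ⊓ fx (h ∘ₗ ρ m)) := Finset.mul_sum _ _ _
        _ ≤ ∑ m : M, finrank F U₁ := Finset.sum_le_sum fun m _ => hb m
        _ = Nat.card M * finrank F U₁ := by
          rw [Finset.sum_const, Finset.card_univ, smul_eq_mul, ← Nat.card_eq_fintype_card]
  calc 2 * ∑ m : M, finrank F ↥(U ⊓ fx (h ∘ₗ ρ m))
      ≤ 2 * ∑ m : M, (finrank F ↥(U₁ ⊓ fx (h ∘ₗ ρ m)) + finrank F ↥(U₂ ⊓ fx (h ∘ₗ ρ m))) :=
        Nat.mul_le_mul_left _ (Finset.sum_le_sum fun m _ => hsplit m)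
    _ = 2 * ∑ m : M, finrank F ↥(U₁ ⊓ fx (h ∘ₗ ρ m)) +
        2 * ∑ m : M, finrank F ↥(U₂ ⊓ fx (h ∘ₗ ρ m)) := by
      rw [Finset.sum_add_distrib, mul_add]
    _ ≤ Nat.card M * finrank F U₁ + Nat.card M * finrank F U₂ := Nat.add_le_add hI₁ hI₂
    _ = Nat.card M * (finrank F U₁ + finrank F U₂) := (mul_add _ _ _).symm
    _ ≤ Nat.card M * finrank F U := Nat.mul_le_mul_left _ hdim

end core

end Cfsg.Agent.H725.AvgFix
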