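import Cfsg.Agent.H725.AvgFix
import Cfsg.Agent.Lib.SolvableNormalP

/-!
# The average dimension of fixed spaces in a solvable group

`two_mul_sum_solvable`: in a finite solvable group `G` acting nontrivially and irreducibly on the
finite `F_p`-space `V`, the average of `dim C_V(g)` is at most `dim V / 2`.
-/

set_option autoImplicit false

namespace Cfsg.Agent.H725.AvgGrp

open Module Cfsg.Agent.H725.AvgFix

/-- Sum over a group from the sums over the cosets of an abelian normal subgroup. -/
theorem two_mul_sum_normal {F V : Type*} [Field F] [AddCommGroup V] [Module F V]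
    [FiniteDimensional F V] {H : Type*} [Group H] [Finite H] (ρ : H →* Module.End F V)
    (N : Subgroup H) [hNn : N.Normal] (hcomm : ∀ a ∈ N, ∀ b ∈ N, a * b = b * a)
    (hN : (Nat.card N : F) ≠ 0) (h0 : ∀ v : V, (∀ n ∈ N, ρ n v = v) → v = 0) :
    2 * ∑ᶠ h : H, finrank F (fx (ρ h)) ≤ Nat.card H * finrank F V := by
  classical
  have : Fintype H := Fintype.ofFinite H
  have : Fintype N := Fintype.ofFinite N
  let inst : CommGroup N :=
    { (inferInstance : Group N) with mul_comm := fun a b => Subtype.ext (hcomm a a.2 b b.2) }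
  let ρN : N →* Module.End F V := ρ.comp N.subtype
  have key : ∀ h : H, 2 * ∑ n : N, finrank F (fx (ρ (h * n))) ≤ Nat.card N * finrank F V := by
    intro h
    have hinj : Function.Injective (ρ h) := by
      intro a b hab
      have h3 := congrArg (ρ h⁻¹) hab
      have h4 : ∀ v : V, ρ h⁻¹ (ρ h v) = v := by
        intro v
        rw [← Module.End.mul_apply, ← map_mul, inv_mul_cancel, map_one, Module.End.one_apply]
      rwa [h4, h4] at h3
    have h1 := two_mul_sum_le (F := F) (V := V) (M := N) ρN hN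
      (σ := (MulAut.conjNormal h : MulAut N)) (h := ρ h) hinj ?_ _ ⊤ rfl
      (fun _ _ _ => Submodule.mem_top) (fun _ _ => Submodule.mem_top)
      (fun u _ hu => h0 u fun n hn => hu ⟨n, hn⟩)
    · rw [finsum_eq_sum_of_fintype, finrank_top] at h1
      refine le_trans (le_of_eq ?_) h1
      congr 1
      refine Finset.sum_congr rfl fun n _ => ?_
      have h2 : ρ h ∘ₗ ρN n = ρ (h * (n : H)) := by
        rw [map_mul]
        rfl
      rw [top_inf_eq, h2]
    · intro m v
      show ρ h (ρ (m : H) v) = ρ ((MulAut.conjNormal h : MulAut N) m : H) (ρ h v)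
      rw [MulAut.conjNormal_apply, ← Module.End.mul_apply, ← Module.End.mul_apply, ← map_mul,
        ← map_mul]
      congr 2
      group
  have hsum := Finset.sum_le_sum (fun (h : H) (_ : h ∈ Finset.univ) => key h)
  rw [Finset.sum_const, Finset.card_univ, smul_eq_mul, ← Nat.card_eq_fintype_card,
    ← Finset.mul_sum, Finset.sum_comm] at hsum
  have hshift : ∀ n : N, ∑ h : H, finrank F (fx (ρ (h * n))) = ∑ h : H, finrank F (fx (ρ h)) := by
    intro n
    exact Fintype.sum_equiv (Equiv.mulRight (n : H)) _ _ fun m => rfl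
  rw [Finset.sum_congr rfl (fun n _ => hshift n), Finset.sum_const, Finset.card_univ, smul_eq_mul,
    ← Nat.card_eq_fintype_card] at hsum
  rw [finsum_eq_sum_of_fintype]
  have hpos : 0 < Nat.card N := Nat.card_pos
  refine Nat.le_of_mul_le_mul_left ?_ hpos
  calc Nat.card N * (2 * ∑ h : H, finrank F (fx (ρ h)))
      = 2 * (Nat.card N * ∑ h : H, finrank F (fx (ρ h))) := by ring
    _ ≤ Nat.card H * (Nat.card N * finrank F V) := hsum
    _ = Nat.card N * (Nat.card H * finrank F V) := by ring

/-- Sums over a group of a function on the image of a homomorphism. -/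
theorem sum_comp {G H : Type*} [Group G] [Finite G] [Group H] [Finite H] (π : G →* H)
    (hπ : Function.Surjective π) (f : H → ℕ) :
    ∑ᶠ g : G, f (π g) = Nat.card π.ker * ∑ᶠ h : H, f h := by
  classical
  have : Fintype G := Fintype.ofFinite G
  have : Fintype H := Fintype.ofFinite H
  rw [finsum_eq_sum_of_fintype, finsum_eq_sum_of_fintype, Finset.mul_sum]
  rw [← Finset.sum_fiberwise_of_maps_to (s := (Finset.univ : Finset G))
    (t := (Finset.univ : Finset H)) (g := π) (fun _ _ => Finset.mem_univ _)]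
  refine Finset.sum_congr rfl fun h _ => ?_
  obtain ⟨g₀, rfl⟩ := hπ h
  rw [Finset.sum_congr rfl (g := fun _ => f (π g₀))
    (fun g hg => by rw [(Finset.mem_filter.1 hg).2]), Finset.sum_const, smul_eq_mul]
  congr 1
  rw [← Fintype.card_subtype, ← Nat.card_eq_fintype_card]
  refine Nat.card_congr
    { toFun := fun g => ⟨g₀⁻¹ * g, by
        rw [MonoidHom.mem_ker, map_mul, map_inv, g.2, inv_mul_cancel]⟩
      invFun := fun k => ⟨g₀ * k, by rw [map_mul, MonoidHom.mem_ker.1 k.2, mul_one]⟩
      left_inv := fun g => by ext; simp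
      right_inv := fun k => by ext; simp }

/-- A nontrivial `p`-group has a nonzero fixed vector on a nonzero finite `F_p`-space. -/
theorem exists_fixed {p : ℕ} [hp : Fact p.Prime] {V : Type*} [AddCommGroup V]
    [Module (ZMod p) V] [Finite V] {N : Type*} [Group N] (ρ : N →* Module.End (ZMod p) V)
    (hN : IsPGroup p N) (hV : ∃ v : V, v ≠ 0) : ∃ v : V, v ≠ 0 ∧ ∀ n : N, ρ n v = v := by
  obtain ⟨v₀, hv₀⟩ := hV
  have hdvd : p ∣ Nat.card V := by
    have h1 : addOrderOf v₀ ∣ p := by
      rw [addOrderOf_dvd_iff_nsmul_eq_zero]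
      have : (p : ZMod p) • v₀ = 0 := by rw [ZMod.natCast_self, zero_smul]
      rwa [Nat.cast_smul_eq_nsmul] at this
    have h2 : addOrderOf v₀ ≠ 1 := by rwa [Ne, AddMonoid.addOrderOf_eq_one_iff]
    have h3 : addOrderOf v₀ = p := ((Nat.dvd_prime hp.out).1 h1).resolve_left h2
    rw [← h3]
    exact addOrderOf_dvd_natCard v₀
  let act : MulAction N V :=
    { smul := fun n v => ρ n v
      one_smul := fun v => by
        show ρ (1 : N) v = v
        rw [map_one, Module.End.one_apply]
      mul_smul := fun a b v => by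
        show ρ (a * b) v = ρ a (ρ b v)
        rw [map_mul]; rfl }
  have hfix0 : (0 : V) ∈ MulAction.fixedPoints N V := by
    intro n
    exact map_zero (ρ n)
  obtain ⟨w, hw, hw0⟩ := hN.exists_fixed_point_of_prime_dvd_card_of_fixed_point V hdvd hfix0
  exact ⟨w, hw0.symm, fun n => hw n⟩

/-- The average bound for solvable groups, faithful action. -/
theorem two_mul_sum_faithful {p : ℕ} [hp : Fact p.Prime] {V : Type*} [AddCommGroup V]
    [Module (ZMod p) V] [Finite V] {G : Type*} [Group G] [Finite G] [Group.IsSolvable G]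
    [Nontrivial G] (ρ : G →* Module.End (ZMod p) V) (hinj : Function.Injective ρ)
    (hirr : ∀ U : Submodule (ZMod p) V, (∀ (g : G), ∀ u ∈ U, ρ g u ∈ U) → U = ⊥ ∨ U = ⊤) :
    2 * ∑ᶠ g : G, finrank (ZMod p) (fx (ρ g)) ≤ Nat.card G * finrank (ZMod p) V := by
  have hfd : FiniteDimensional (ZMod p) V := Module.Finite.of_finite
  obtain ⟨q, N, hq, hNn, hNq, hNc, hN⟩ :=
    Cfsg.Agent.Lib.SolvableNormalP.exists_normal_pSubgroup G
  have : Fact q.Prime := ⟨hq⟩
  -- the fixed space of `N`
  let W : Submodule (ZMod p) V := ⨅ n : N, fx (ρ n)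
  have hW : ∀ {w : V}, w ∈ W ↔ ∀ n ∈ N, ρ n w = w := by
    intro w
    simp only [W, Submodule.mem_iInf, mem_fx, Subtype.forall]
  have hmul : ∀ (a b : G) (v : V), ρ a (ρ b v) = ρ (a * b) v := by
    intro a b v
    rw [map_mul]; rfl
  have hWinv : ∀ (g : G), ∀ u ∈ W, ρ g u ∈ W := by
    intro g u hu
    rw [hW]
    intro n hn
    rw [hmul]
    have h1 : n * g = g * (g⁻¹ * n * g) := by group
    have h2 : g⁻¹ * n * g ∈ N := by
      have := hNn.conj_mem n hn g⁻¹
      rwa [inv_inv] at this
    rw [h1, ← hmul, hW.1 hu _ h2]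
  have hWbot : W = ⊥ := by
    rcases hirr W hWinv with h | h
    · exact h
    · exfalso
      apply hN
      rw [Subgroup.eq_bot_iff_forall]
      intro n hn
      apply hinj
      rw [map_one]
      ext v
      have hv : v ∈ W := by rw [h]; exact Submodule.mem_top
      exact hW.1 hv n hn
  have h0 : ∀ v : V, (∀ n ∈ N, ρ n v = v) → v = 0 := by
    intro v hv
    have : v ∈ W := hW.2 hv
    rw [hWbot] at this
    exact (Submodule.mem_bot _).1 this
  have hqp : q ≠ p := by
    rintro rfl
    have hVne : ∃ v : V, v ≠ 0 := by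
      obtain ⟨g, hg⟩ := exists_ne (1 : G)
      by_contra hcon
      push Not at hcon
      apply hg
      apply hinj
      ext v
      rw [hcon v, map_zero, map_zero]
    obtain ⟨w, hw0, hw⟩ := exists_fixed (ρ.comp N.subtype) hNq hVne
    exact hw0 (h0 w fun n hn => hw ⟨n, hn⟩)
  have hcard : (Nat.card N : ZMod p) ≠ 0 := by
    obtain ⟨k, hk⟩ := IsPGroup.iff_card.1 hNq
    rw [hk, Nat.cast_pow]
    apply pow_ne_zero
    rw [Ne, ZMod.natCast_eq_zero_iff]
    intro h
    exact hqp ((Nat.prime_dvd_prime_iff_eq hp.out hq).1 h).symm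
  have hcomm : ∀ a ∈ N, ∀ b ∈ N, a * b = b * a := by
    intro a ha b hb
    exact congrArg Subtype.val (hNc.is_comm.comm ⟨a, ha⟩ ⟨b, hb⟩)
  exact two_mul_sum_normal ρ N hcomm hcard h0

/-- A homomorphism to a monoid factors through a faithful one. -/
theorem exists_faithful.{u} {E : Type*} [Monoid E] {G : Type u} [Group G] [Finite G]
    [hs : Group.IsSolvable G] (ρ : G →* E) : ∃ (H : Type u) (_ : Group H) (_ : Finite H)
      (_ : Group.IsSolvable H) (π : G →* H) (ρ' : H →* E),
      Function.Surjective π ∧ Function.Injective ρ' ∧ ∀ g, ρ' (π g) = ρ g := by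
  have h1 : Finite (G ⧸ ρ.ker) := inferInstance
  have h2 : Group.IsSolvable (G ⧸ ρ.ker) :=
    Group.isSolvable_of_surjective (QuotientGroup.mk'_surjective ρ.ker)
  refine ⟨G ⧸ ρ.ker, _, h1, h2, QuotientGroup.mk' ρ.ker,
      QuotientGroup.lift ρ.ker ρ (fun g hg => hg), QuotientGroup.mk'_surjective _, ?_,
      fun g => QuotientGroup.lift_mk _ _ _⟩
  intro a b hab
  induction a using QuotientGroup.induction_on with | H a => ?_
  induction b using QuotientGroup.induction_on with | H b => ?_
  rw [QuotientGroup.lift_mk, QuotientGroup.lift_mk] at hab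
  rw [QuotientGroup.eq, MonoidHom.mem_ker, map_mul, ← hab, ← map_mul, inv_mul_cancel, map_one]

/-- **The average bound for solvable groups.** -/
theorem two_mul_sum_solvable {p : ℕ} [hp : Fact p.Prime] {V : Type*} [AddCommGroup V]
    [Module (ZMod p) V] [Finite V] {G : Type*} [Group G] [Finite G] [Group.IsSolvable G]
    (ρ : G →* Module.End (ZMod p) V)
    (hirr : ∀ U : Submodule (ZMod p) V, (∀ (g : G), ∀ u ∈ U, ρ g u ∈ U) → U = ⊥ ∨ U = ⊤)
    (hnt : ∃ (g : G) (v : V), ρ g v ≠ v) :
    2 * ∑ᶠ g : G, finrank (ZMod p) (fx (ρ g)) ≤ Nat.card G * finrank (ZMod p) V := by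
  obtain ⟨H, hH, hHf, hHs, π, ρ', hπ, hinj, hρ'⟩ := exists_faithful ρ
  have hnt' : Nontrivial H := by
    obtain ⟨g, v, hgv⟩ := hnt
    refine ⟨⟨π g, 1, fun h => hgv ?_⟩⟩
    rw [← hρ', h, map_one, Module.End.one_apply]
  have hmain := two_mul_sum_faithful ρ' hinj (by
    intro U hU
    exact hirr U fun g u hu => by
      rw [← hρ']
      exact hU (π g) u hu)
  have hsum : ∑ᶠ g : G, finrank (ZMod p) (fx (ρ g)) =
      Nat.card π.ker * ∑ᶠ h : H, finrank (ZMod p) (fx (ρ' h)) := by
    rw [← sum_comp π hπ]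
    exact finsum_congr fun g => by rw [hρ']
  rw [hsum]
  have hcardG : Nat.card G = Nat.card H * Nat.card π.ker := by
    rw [Subgroup.card_eq_card_quotient_mul_card_subgroup π.ker]
    congr 1
    exact Nat.card_congr (QuotientGroup.quotientKerEquivOfSurjective π hπ).toEquiv
  rw [hcardG]
  calc 2 * (Nat.card π.ker * ∑ᶠ h : H, finrank (ZMod p) (fx (ρ' h)))
      = Nat.card π.ker * (2 * ∑ᶠ h : H, finrank (ZMod p) (fx (ρ' h))) := by ring
    _ ≤ Nat.card π.ker * (Nat.card H * finrank (ZMod p) V) := Nat.mul_le_mul_left _ hmain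
    _ = Nat.card H * Nat.card π.ker * finrank (ZMod p) V := by ring

end Cfsg.Agent.H725.AvgGrp
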