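import Cfsg.Agent.H725.AvgGrp
import Cfsg.Agent.OddOrderCharacters.PF9.SectionModule

/-!
# Average number of fixed points on a chief factor of a solvable group

`chief_sum`: for a chief factor `N / L` of order `p ^ d`, `d ≠ 1`, of the finite solvable group `G`
there are `c g` with `|C_N(g) : C_L(g)|` dividing `p ^ c g` and `2 ∑ c g ≤ |G| d`.
-/

set_option autoImplicit false

namespace Cfsg.Agent.H725.ChiefAvg

open Module Cfsg.Agent.H725.AvgFix Cfsg.Agent.H725.AvgGrp
open Cfsg.Agent.OddOrderCharacters.PF9.SectionModule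

universe u

variable {G : Type u} [Group G] [Finite G]

theorem chief_sum [Group.IsSolvable G] {p : ℕ} [hp : Fact p.Prime] (N L : Subgroup G)
    [hN : N.Normal] [hL : L.Normal] (hLN : L < N)
    (hchief : ∀ M : Subgroup G, M.Normal → L ≤ M → M ≤ N → M = L ∨ M = N)
    (hab : ∀ a ∈ N, ∀ b ∈ N, a * b * a⁻¹ * b⁻¹ ∈ L) (hexp : ∀ a ∈ N, a ^ p ∈ L) :
    ∃ (d : ℕ) (c : G → ℕ), L.relIndex N = p ^ d ∧
      (∀ g, L.relIndex (Subgroup.centralizer ({g} : Set G) ⊓ N) ∣ p ^ (c g)) ∧
      (∀ g, c g ≤ d) ∧ (d ≠ 1 → 2 * ∑ᶠ g : G, c g ≤ Nat.card G * d) := by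
  classical
  obtain ⟨V, hV1, hV2, π, hsurj, hadd, hker, hcard⟩ := exists_module p N L
    (fun h _ k hk => hL.conj_mem k hk h) hab hexp
  obtain ⟨ρ, hρ⟩ := exists_rep_normal (p := p) hsurj hadd hker hN hL
  have hfin : Finite V := Finite.of_surjective π hsurj
  have hfd : FiniteDimensional (ZMod p) V := Module.Finite.of_finite
  have hcardV : Nat.card V = p ^ finrank (ZMod p) V := by
    rw [Module.natCard_eq_pow_finrank (K := ZMod p), Nat.card_zmod]
  have hne : ∃ v : V, v ≠ 0 := by
    obtain ⟨x, hxN, hxL⟩ := Set.exists_of_ssubset (SetLike.coe_ssubset_coe.2 hLN)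
    refine ⟨π ⟨x, hxN⟩, fun h => hxL ?_⟩
    exact (hker _).1 h
  have hirr : ∀ U : Submodule (ZMod p) V, (∀ (g : G), ∀ u ∈ U, ρ g u ∈ U) → U = ⊥ ∨ U = ⊤ := by
    intro U hU
    obtain ⟨K, hKN, hK⟩ := exists_subgroup (p := p) hadd U
    have hLK : L ≤ K := by
      intro x hx
      have hxN : x ∈ N := hLN.le hx
      rw [hK ⟨x, hxN⟩, (hker _).2 hx]
      exact U.zero_mem
    have hKn : K.Normal := by
      constructor
      intro x hx g
      have hxN : x ∈ N := hKN hx
      have h1 := hU g _ ((hK ⟨x, hxN⟩).1 hx)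
      rw [hρ] at h1
      exact (hK ⟨g * x * g⁻¹, _⟩).2 h1
    rcases hchief K hKn hLK hKN with h | h
    · left
      rw [Submodule.eq_bot_iff]
      intro v hv
      obtain ⟨n, rfl⟩ := hsurj v
      rw [hker, ← h, hK]
      exact hv
    · right
      rw [Submodule.eq_top_iff']
      intro v
      obtain ⟨n, rfl⟩ := hsurj v
      rw [← hK, h]
      exact n.2
  refine ⟨finrank (ZMod p) V, fun g => finrank (ZMod p) (fx (ρ g)), ?_, ?_, ?_, ?_⟩
  · rw [← hcard, hcardV]
  · intro g
    set C := Subgroup.centralizer ({g} : Set G) ⊓ N with hC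
    let f : C →* Multiplicative (fx (ρ g)) :=
      { toFun := fun c => Multiplicative.ofAdd ⟨π ⟨c, (Subgroup.mem_inf.1 c.2).2⟩, by
          rw [mem_fx, hρ]
          congr 1
          apply Subtype.ext
          show g * (c : G) * g⁻¹ = c
          have h1 := (Subgroup.mem_inf.1 c.2).1
          rw [Subgroup.mem_centralizer_singleton_iff] at h1
          rw [← h1, mul_inv_cancel_right]⟩
        map_one' := by
          apply Multiplicative.toAdd.injective
          apply Subtype.ext
          show π _ = 0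
          exact pi_one hadd
        map_mul' := fun a b => by
          apply Multiplicative.toAdd.injective
          apply Subtype.ext
          exact hadd ⟨a, (Subgroup.mem_inf.1 a.2).2⟩ ⟨b, (Subgroup.mem_inf.1 b.2).2⟩ }
    have hfker : f.ker = L.subgroupOf C := by
      ext c
      rw [MonoidHom.mem_ker, Subgroup.mem_subgroupOf, ← hker ⟨c, (Subgroup.mem_inf.1 c.2).2⟩]
      constructor
      · intro h
        exact congrArg (fun z => ((Multiplicative.toAdd z : fx (ρ g)) : V)) h
      · intro h
        apply Multiplicative.toAdd.injective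
        apply Subtype.ext
        exact h
    have h1 : L.relIndex C = Nat.card f.range := by
      rw [Subgroup.relIndex, ← hfker, Subgroup.index_ker]
    rw [h1]
    have h2 : Nat.card (Multiplicative (fx (ρ g))) = p ^ finrank (ZMod p) (fx (ρ g)) := by
      rw [Nat.card_congr Multiplicative.toAdd, Module.natCard_eq_pow_finrank (K := ZMod p),
        Nat.card_zmod]
    rw [← h2]
    exact Subgroup.card_subgroup_dvd_card f.range
  · intro g
    exact Submodule.finrank_le _
  · intro hd
    refine two_mul_sum_solvable ρ hirr ?_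
    by_contra hcon
    push Not at hcon
    apply hd
    obtain ⟨v, hv⟩ := hne
    rw [finrank_eq_one_iff_of_nonzero v hv]
    rcases hirr (Submodule.span (ZMod p) {v}) (fun g u hu => by rwa [hcon]) with h | h
    · exfalso
      rw [Submodule.span_singleton_eq_bot] at h
      exact hv h
    · exact h

end Cfsg.Agent.H725.ChiefAvg
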